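import Cfsg.Agent.H139.Orth.OrbOne
import Cfsg.Agent.H346.CoxA
import Cfsg.Agent.NotCT.Orders
import Cfsg.Agent.H921.SporFi

/-!
# `Fi24'`: the elements of order 11 form one class

The path of length 10 of the graph `Y542` gives `Perm (Fin 11) → Fi24`; the end node of the short arm commutes with it, so
a Frobenius group of order 110 of `Perm (Fin 11)` gives one in the commutator subgroup.
-/

set_option autoImplicit false
set_option linter.unusedSectionVars false
set_option linter.style.haveILetI false

namespace Cfsg.Agent.H139.Orth.FiFour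

open Cfsg Cfsg.Spor Cfsg.Agent.H921.Spor.Fi Equiv

/-- the 11-cycle -/
def x11 : Perm (Fin 11) := finRotate 11

/-- multiplication by 2, a 10-cycle -/
def t11 : Perm (Fin 11) := swap 1 2 * swap 2 4 * swap 4 8 * swap 8 5 * swap 5 10 * swap 10 9 * swap 9 7 *
  swap 7 3 * swap 3 6

/-- an element conjugating the 11-cycle -/
def g11 : Perm (Fin 11) := swap 2 10 * swap 3 9 * swap 4 8 * swap 5 7

theorem x11_pow : x11 ^ 11 = 1 := by decide +kernel
theorem conj11 : t11 * x11 = x11 ^ 2 * t11 := by decide +kernel
theorem e11 : swap (1 : Fin 11) 2 * swap 0 1 = x11 * (g11 * x11 * g11⁻¹) := by decide +kernel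

/-- the generators -/
abbrev gF (x : Fi24.Gen) : Fi24 := gn Fi24.edges Fi24.extra x

theorem gsq (x : Fi24.Gen) : gF x * gF x = 1 := by
  have hx : x ∈ coxNodes Fi24.edges := by cases x <;> decide
  have h5 := rel (extra := Fi24.extra) hx hx
  have h6 : coxLabel Fi24.edges x x = 1 := by simp [coxLabel]
  rwa [h6, pow_one] at h5

theorem gcomm {x y : Fi24.Gen} (h : coxLabel Fi24.edges x y = 2) : gF x * gF y = gF y * gF x := by
  have hx : x ∈ coxNodes Fi24.edges := by cases x <;> decide
  have hy : y ∈ coxNodes Fi24.edges := by cases y <;> decide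
  have h2 := rel (extra := Fi24.extra) hx hy
  rw [h] at h2
  have h5 : gF x * gF y = (gF x * gF y)⁻¹ := eq_inv_of_mul_eq_one_left (by rw [← pow_two]; exact h2)
  rw [h5, mul_inv_rev, inv_eq_of_mul_eq_one_left (gsq x), inv_eq_of_mul_eq_one_left (gsq y)]

theorem gbraid {x y : Fi24.Gen} (h : coxLabel Fi24.edges x y = 3) :
    gF x * gF y * gF x = gF y * gF x * gF y := by
  have hx : x ∈ coxNodes Fi24.edges := by cases x <;> decide
  have hy : y ∈ coxNodes Fi24.edges := by cases y <;> decide
  have h2 := rel (extra := Fi24.extra) hx hy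
  rw [h] at h2
  have h3 : (gF x * gF y * gF x) * (gF y * gF x * gF y) = 1 := by
    rw [← h2]
    change _ = (gF x * gF y) ^ 3
    simp only [pow_succ, pow_zero, one_mul, mul_assoc]
  have h4 : gF x * gF y * gF x = (gF y * gF x * gF y)⁻¹ := eq_inv_of_mul_eq_one_left h3
  rw [h4, mul_inv_rev, mul_inv_rev, inv_eq_of_mul_eq_one_left (gsq x), inv_eq_of_mul_eq_one_left (gsq y),
    mul_assoc]

theorem lab3 : ∀ i : Fin 9, coxLabel Fi24.edges (f24 i) (f24 (i + 1)) = 3 := by decide

theorem lab2 : ∀ i j : Fin 10, (i : ℕ) + 1 < j → coxLabel Fi24.edges (f24 i) (f24 j) = 2 := by decide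

theorem labi : ∀ i : Fin 10, coxLabel Fi24.edges .i (f24 i) = 2 := by decide

theorem relA : Cfsg.Agent.H346.CoxA.Rel 10 (fun i => gF (f24 i)) where
  sq i _ := gsq _
  braid i hi := gbraid (lab3 ⟨i, by omega⟩)
  comm i j hij hj := gcomm (lab2 ⟨i, by omega⟩ ⟨j, hj⟩ hij)

/-- the abelianization of the generators -/
theorem ab_eq (x y : Fi24.Gen) :
    Abelianization.of (gF x) = Abelianization.of (gF y) := by
  have hn : ∀ x : Fi24.Gen, x ∈ coxNodes Fi24.edges := by intro x; cases x <;> decide
  have hstep : ∀ x y : Fi24.Gen, coxLabel Fi24.edges x y = 3 →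
      Abelianization.of (gF x) = Abelianization.of (gF y) := by
    intro x y h
    have h1 := adj_mem (extra := Fi24.extra) (hn x) (hn y) h
    rw [← Abelianization.ker_of, MonoidHom.mem_ker, map_mul] at h1
    have h2 : Abelianization.of (gF y) * Abelianization.of (gF y) = 1 := by
      rw [← map_mul, gsq, map_one]
    exact (eq_inv_of_mul_eq_one_left h1).trans (eq_inv_of_mul_eq_one_left h2).symm
  have key : ∀ x : Fi24.Gen, Abelianization.of (gF x) = Abelianization.of (gF .d) := by
    have hc : Abelianization.of (gF .c) = Abelianization.of (gF .d) := hstep _ _ (by decide)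
    have hb : Abelianization.of (gF .b) = Abelianization.of (gF .d) := (hstep _ .c (by decide)).trans hc
    have ha : Abelianization.of (gF .a) = Abelianization.of (gF .d) := (hstep _ .b (by decide)).trans hb
    have hk : Abelianization.of (gF .k) = Abelianization.of (gF .d) := (hstep _ .a (by decide)).trans ha
    have hl : Abelianization.of (gF .l) = Abelianization.of (gF .d) := (hstep _ .k (by decide)).trans hk
    have he : Abelianization.of (gF .e) = Abelianization.of (gF .d) := hstep _ _ (by decide)
    have hf : Abelianization.of (gF .f) = Abelianization.of (gF .d) := (hstep _ .e (by decide)).trans he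
    have hg : Abelianization.of (gF .g) = Abelianization.of (gF .d) := (hstep _ .f (by decide)).trans hf
    have hj : Abelianization.of (gF .j) = Abelianization.of (gF .d) := (hstep _ .g (by decide)).trans hg
    have hh : Abelianization.of (gF .h) = Abelianization.of (gF .d) := hstep _ _ (by decide)
    have hi : Abelianization.of (gF .i) = Abelianization.of (gF .d) := (hstep _ .h (by decide)).trans hh
    intro x
    cases x
    · exact hl
    · exact hk
    · exact ha
    · exact hb
    · exact hc
    · rfl
    · exact he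
    · exact hf
    · exact hg
    · exact hj
    · exact hh
    · exact hi
  rw [key x, key y]

/-- **`11 : 10` in `Fi24'`.** -/
theorem rootP (hnc : ∃ g h : Fi24', g * h ≠ h * g) : RootP 11 Fi24' := by
  have hp : Nat.Prime 11 := by norm_num
  obtain ⟨f, hf⟩ := Cfsg.Agent.H346.CoxA.exists_hom 10 _ relA
  have h0 : f (swap 0 1) = gF (f24 0) := hf 0
  have h1 : f (swap 1 2) = gF (f24 1) := hf 1
  -- parity
  have hsw : ∀ a b : Fin 11, a ≠ b → Abelianization.of (f (swap a b)) = Abelianization.of (gF .d) := by
    intro a b hab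
    have h2 : IsConj (swap a b) (swap (0 : Fin 11) 1) := Perm.isConj_swap hab (by decide)
    have h3 := MonoidHom.map_isConj (Abelianization.of.comp f) h2
    rw [isConj_iff_eq] at h3
    change Abelianization.of (f (swap a b)) = Abelianization.of (f (swap 0 1)) at h3
    rw [h3, h0, ab_eq]
  have hε : Abelianization.of (gF .d) * Abelianization.of (gF .d) = 1 := by
    rw [← map_mul, gsq, map_one]
  have hε2 : Abelianization.of (gF .d) ^ 2 = 1 := by rw [pow_two, hε]
  have hxm : f x11 ∈ commutator Fi24 := by
    have e : x11 = swap 0 1 * swap 1 2 * swap 2 3 * swap 3 4 * swap 4 5 * swap 5 6 * swap 6 7 * swap 7 8 *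
      swap 8 9 * swap 9 10 := by decide +kernel
    rw [← Abelianization.ker_of, MonoidHom.mem_ker, e]
    simp only [map_mul]
    rw [hsw 0 1 (by decide), hsw 1 2 (by decide), hsw 2 3 (by decide), hsw 3 4 (by decide), hsw 4 5 (by decide),
      hsw 5 6 (by decide), hsw 6 7 (by decide), hsw 7 8 (by decide), hsw 8 9 (by decide), hsw 9 10 (by decide)]
    simp only [mul_assoc, hε, mul_one]
  have htm : f t11 * gF .i ∈ commutator Fi24 := by
    rw [← Abelianization.ker_of, MonoidHom.mem_ker, t11]
    simp only [map_mul]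
    rw [hsw 1 2 (by decide), hsw 2 4 (by decide), hsw 4 8 (by decide), hsw 8 5 (by decide), hsw 5 10 (by decide),
      hsw 10 9 (by decide), hsw 9 7 (by decide), hsw 7 3 (by decide), hsw 3 6 (by decide), ab_eq .i .d]
    simp only [mul_assoc, hε, mul_one]
  -- the node `i` commutes with the image
  have hic : ∀ p : Perm (Fin 11), gF .i * f p = f p * gF .i := by
    intro p
    have hp : p ∈ Submonoid.closure (Set.range fun i : Fin 10 => swap i.castSucc i.succ) := by
      rw [Perm.mclosure_swap_castSucc_succ]; trivial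
    induction hp using Submonoid.closure_induction with
    | mem x hx =>
      obtain ⟨i, rfl⟩ := hx
      rw [hf i]
      exact gcomm (labi i)
    | one => simp
    | mul x y _ _ hx hy => rw [map_mul, ← mul_assoc, hx, mul_assoc, hy, ← mul_assoc]
  have hx1 : f x11 ≠ 1 := by
    intro hx
    apply Fi24_ne hnc
    have h2 : gF (f24 1) * gF (f24 0) = 1 := by
      rw [← h0, ← h1, ← map_mul, e11, map_mul, map_mul, map_mul, hx, map_inv]
      group
    have h3 : gF (f24 1) = (gF (f24 0))⁻¹ := eq_inv_of_mul_eq_one_left h2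
    change gF (f24 0) * gF (f24 1) = 1
    rw [h3, mul_inv_cancel]
  refine RootP.of_pow hp (x := (⟨f x11, hxm⟩ : Fi24')) (t := ⟨f t11 * gF .i, htm⟩) (g := 2) ?_ ?_ ?_ (by decide)
  · apply Subtype.ext
    change f x11 ^ 11 = 1
    rw [← map_pow, x11_pow, map_one]
  · intro h
    exact hx1 (congrArg Subtype.val h)
  · apply Subtype.ext
    change f t11 * gF .i * f x11 = f x11 ^ 2 * (f t11 * gF .i)
    rw [mul_assoc, hic, ← mul_assoc, ← map_mul, conj11, map_mul, map_pow, mul_assoc]

end Cfsg.Agent.H139.Orth.FiFour
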