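import Cfsg.Agent.H727.Orth.SporTool
import Cfsg.Agent.H921.SporOrb

/-!
# `Orb r (r - 1) S` and `r ∥ |S|`: the elements of order `r` form one class
-/

set_option autoImplicit false

namespace Cfsg.Agent.H139.Orth

open Subgroup Cfsg.Agent.H921.Spor Cfsg.Agent.H727.Orth
open scoped Pointwise

universe u

/-- a homomorphism-like function on a cyclic group of prime order -/
theorem exists_fun {T : Type u} [Group T] {r k : ℕ} (hr : r.Prime) {e : T} (he : orderOf e = r)
    (hk : e ^ r ^ k = 1) : ∃ f : T → ZMod (r ^ k),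
      (∀ a ∈ zpowers e, ∀ b ∈ zpowers e, f (a * b) = f a + f b) ∧ f e ≠ 0 := by
  classical
  have hk0 : k ≠ 0 := by
    rintro rfl
    rw [pow_zero, pow_one] at hk
    rw [hk, orderOf_one] at he
    exact hr.one_lt.ne he
  obtain ⟨j, rfl⟩ : ∃ j, k = j + 1 := ⟨k - 1, by omega⟩
  -- the value at a power
  have hfin : ∀ x ∈ zpowers e, ∃ n : ℕ, e ^ n = x := by
    intro x hx
    have hfo : IsOfFinOrder e := orderOf_pos_iff.1 (he ▸ hr.pos)
    have := (hfo.mem_powers_iff_mem_zpowers).2 hx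
    exact this
  let f : T → ZMod (r ^ (j + 1)) := fun x =>
    if hx : x ∈ zpowers e then (((hfin x hx).choose * r ^ j : ℕ) : ZMod (r ^ (j + 1))) else 0
  have hf : ∀ n : ℕ, f (e ^ n) = ((n * r ^ j : ℕ) : ZMod (r ^ (j + 1))) := by
    intro n
    have hx : e ^ n ∈ zpowers e := npow_mem_zpowers e n
    have h1 : f (e ^ n) = (((hfin _ hx).choose * r ^ j : ℕ) : ZMod (r ^ (j + 1))) := dif_pos hx
    rw [h1]
    have h2 := (hfin _ hx).choose_spec
    rw [pow_inj_mod, he] at h2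
    rw [ZMod.natCast_eq_natCast_iff]
    have h3 : (hfin _ hx).choose ≡ n [MOD r] := h2
    rw [pow_succ']
    exact Nat.ModEq.mul_right' _ h3
  refine ⟨f, ?_, ?_⟩
  · intro a ha b hb
    obtain ⟨n, rfl⟩ := hfin a ha
    obtain ⟨m, rfl⟩ := hfin b hb
    rw [← pow_add, hf, hf, hf]
    push_cast
    ring
  · have h1 := hf 1
    rw [pow_one, one_mul] at h1
    rw [h1]
    intro h2
    rw [ZMod.natCast_eq_zero_iff] at h2
    have h3 := Nat.le_of_dvd (pow_pos hr.pos j) h2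
    have h4 : r ^ j < r ^ (j + 1) := Nat.pow_lt_pow_right hr.one_lt (Nat.lt_succ_self j)
    omega

/-- **One class**, from the powers of one element. -/
theorem isConj_of_zpowers {S : Type u} [Group S] [Finite S] {r : ℕ} (hr : r.Prime)
    (hsq : ¬ r ^ 2 ∣ Nat.card S) {e₀ : S} (ho : orderOf e₀ = r)
    (key : ∀ z ∈ zpowers e₀, z ≠ 1 → IsConj e₀ z) :
    ∀ y z : S, orderOf y = r → orderOf z = r → IsConj y z := by
  have hfact : Fact r.Prime := ⟨hr⟩
  have hsyl : ∀ y : S, orderOf y = r → IsConj e₀ y := by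
    intro y hy
    obtain ⟨m, hm⟩ : ∃ m, Nat.card S = r * m := (ho ▸ orderOf_dvd_natCard e₀ : r ∣ Nat.card S)
    have hfac : (Nat.card S).factorization r = 1 := by
      apply le_antisymm
      · by_contra hge
        exact hsq ((hr.pow_dvd_iff_le_factorization Nat.card_pos.ne').2 (by omega))
      · exact (hr.pow_dvd_iff_le_factorization Nat.card_pos.ne').1 (by rw [pow_one, hm]; exact dvd_mul_right _ _)
    let P : Sylow r S := Sylow.ofCard (zpowers e₀) (by rw [hfac, pow_one, Nat.card_zpowers, ho])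
    let Q : Sylow r S := Sylow.ofCard (zpowers y) (by rw [hfac, pow_one, Nat.card_zpowers, hy])
    obtain ⟨g, hg⟩ := MulAction.exists_smul_eq S Q P
    have h1 : g * y * g⁻¹ ∈ zpowers e₀ := by
      have h2 : MulAut.conj g • y ∈ MulAut.conj g • (Q : Subgroup S) :=
        Subgroup.smul_mem_pointwise_smul _ _ _ (mem_zpowers y)
      rw [← Sylow.coe_subgroup_smul] at h2
      have h3 : ((g • Q : Sylow r S) : Subgroup S) = zpowers e₀ := by rw [hg]; rfl
      rw [h3] at h2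
      exact h2
    have h2 : g * y * g⁻¹ ≠ 1 := by
      intro h3
      rw [conj_eq_one_iff.1 h3, orderOf_one] at hy
      exact hr.one_lt.ne hy
    exact (key _ h1 h2).trans (isConj_iff.2 ⟨g⁻¹, by group⟩)
  exact fun y z hy hz => (hsyl y hy).symm.trans (hsyl z hz)

/-- **One class.** -/
theorem isConj_of_orb {S : Type u} [Group S] [Finite S] {r : ℕ} (hr : r.Prime)
    (hsq : ¬ r ^ 2 ∣ Nat.card S) (h : Orb r (r - 1) S) :
    ∀ y z : S, orderOf y = r → orderOf z = r → IsConj y z := by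
  classical
  have hfact : Fact r.Prime := ⟨hr⟩
  obtain ⟨E, e₀, k, hfin, hE, hEr, he₀, he₁, hd⟩ := h
  -- `E` has order `r`
  have hEp : IsPGroup r E := fun x => ⟨k, Subtype.ext (hEr x x.2)⟩
  obtain ⟨n, hn⟩ := IsPGroup.iff_card.1 hEp
  have hn2 : n < 2 := by
    by_contra hge
    exact hsq ((pow_dvd_pow r (not_lt.1 hge)).trans (hn ▸ Subgroup.card_subgroup_dvd_card E))
  have hn0 : n ≠ 0 := by
    rintro rfl
    rw [pow_zero, Subgroup.card_eq_one] at hn
    rw [hn, mem_bot] at he₀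
    exact he₁ he₀
  have hn1 : n = 1 := by omega
  rw [hn1, pow_one] at hn
  have ho : orderOf e₀ = r := by
    have h1 : orderOf (⟨e₀, he₀⟩ : E) ∣ r := hn ▸ orderOf_dvd_natCard _
    rw [Subgroup.orderOf_mk] at h1
    rcases (Nat.dvd_prime hr).1 h1 with h2 | h2
    · exact absurd (orderOf_eq_one_iff.1 h2) he₁
    · exact h2
  have hEz : E = zpowers e₀ := by
    symm
    apply Subgroup.eq_of_le_of_card_ge (zpowers_le.2 he₀)
    rw [hn, Nat.card_zpowers, ho]
  obtain ⟨f, hf, hf0⟩ := exists_fun hr ho (hEr e₀ he₀)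
  obtain ⟨F, hFc, hFn, hFd⟩ := hd f (by rw [hEz]; exact hf) hf0
  -- the conjugates of `e₀`
  let Z : Finset S := F.image fun s => s * e₀ * s⁻¹
  have hZc : Z.card = r - 1 := by
    rw [← hFc]
    apply Finset.card_image_of_injOn
    intro s hs t ht hst
    by_contra hne
    obtain ⟨e, he, h1⟩ := hFd s hs t ht hne
    apply h1
    rw [hEz] at he
    obtain ⟨i, rfl⟩ := mem_zpowers_iff.1 he
    have h2 : ∀ s : S, s * e₀ ^ i * s⁻¹ = (s * e₀ * s⁻¹) ^ i := fun s => (conj_zpow).symm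
    have hst' : s * e₀ * s⁻¹ = t * e₀ * t⁻¹ := hst
    rw [h2, h2, hst']
  have key : ∀ x ∈ E, x ≠ 1 → ∃ s : S, s * e₀ * s⁻¹ = x := by
    have hEfin : (E : Set S).Finite := Set.toFinite _
    let W : Finset S := hEfin.toFinset.erase 1
    have hWc : W.card = r - 1 := by
      rw [Finset.card_erase_of_mem (hEfin.mem_toFinset.2 E.one_mem), ← Set.ncard_eq_toFinset_card _ hEfin]
      change Nat.card E - 1 = r - 1
      rw [hn]
    have hZW : Z ⊆ W := by
      intro x hx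
      obtain ⟨s, hs, rfl⟩ := Finset.mem_image.1 hx
      rw [Finset.mem_erase, hEfin.mem_toFinset]
      refine ⟨?_, hFn s hs e₀ he₀⟩
      intro h1
      exact he₁ (conj_eq_one_iff.1 h1)
    have hZW' : Z = W := Finset.eq_of_subset_of_card_le hZW (by rw [hZc, hWc])
    intro x hx hx1
    have h1 : x ∈ W := Finset.mem_erase.2 ⟨hx1, hEfin.mem_toFinset.2 hx⟩
    rw [← hZW'] at h1
    obtain ⟨s, -, hs⟩ := Finset.mem_image.1 h1
    exact ⟨s, hs⟩
  have hz : ∀ z ∈ zpowers e₀, z ≠ 1 → IsConj e₀ z := by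
    intro z hz hz1
    obtain ⟨s, hs⟩ := key z (hEz ▸ hz) hz1
    exact isConj_iff.2 ⟨s, hs⟩
  exact isConj_of_zpowers hr hsq ho hz

/-- **The row from a configuration.** -/
theorem evenO_of_orb {S : Type u} [Group S] [Finite S] (hc : Subgroup.center S = ⊥) {r : ℕ} (hr : r.Prime)
    (hr2 : r ≠ 2) (hsq : ¬ r ^ 2 ∣ Nat.card S) (h : Orb r (r - 1) S) : EvenO S := by
  have hfact : Fact r.Prime := ⟨hr⟩
  have hdvd : r ∣ Nat.card S := by
    obtain ⟨E, e₀, k, hfin, hE, hEr, he₀, he₁, hd⟩ := h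
    have h1 : orderOf e₀ ∣ r ^ k := orderOf_dvd_of_pow_eq_one (hEr e₀ he₀)
    obtain ⟨i, -, hi⟩ := (Nat.dvd_prime_pow hr).1 h1
    have hi0 : i ≠ 0 := by
      rintro rfl
      rw [pow_zero] at hi
      exact he₁ (orderOf_eq_one_iff.1 hi)
    exact (dvd_pow_self r hi0).trans (hi ▸ orderOf_dvd_natCard e₀)
  obtain ⟨y, hy⟩ := exists_prime_orderOf_dvd_card' r hdvd
  exact evenO_of_once hc hr hr2 hsq hy fun z hz => isConj_of_orb hr hsq h y z hy hz

/-- An element of order `r` conjugate to all its nontrivial powers. -/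
def RootP (r : ℕ) (S : Type*) [Group S] : Prop :=
  ∃ x : S, orderOf x = r ∧ ∀ z ∈ zpowers x, z ≠ 1 → IsConj x z

theorem RootP.map_injective {r : ℕ} {S T : Type*} [Group S] [Group T] (h : RootP r S) (f : S →* T)
    (hf : Function.Injective f) : RootP r T := by
  obtain ⟨x, hx, hz⟩ := h
  refine ⟨f x, by rw [orderOf_injective f hf, hx], ?_⟩
  intro z hz' hz1
  obtain ⟨i, rfl⟩ := mem_zpowers_iff.1 hz'
  rw [← map_zpow] at hz1 ⊢
  exact MonoidHom.map_isConj f (hz _ (zpow_mem_zpowers x i) (fun h1 => hz1 (by rw [h1, map_one])))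

theorem RootP.of_pow {r : ℕ} {S : Type*} [Group S] (hr : r.Prime) {x t : S} (hx : x ^ r = 1) (hx1 : x ≠ 1)
    {g : ℕ} (ht : t * x = x ^ g * t) (hg : ∀ k < r, k ≠ 0 → ∃ j < r, g ^ j % r = k) : RootP r S := by
  have hfact : Fact r.Prime := ⟨hr⟩
  have ho : orderOf x = r := orderOf_eq_prime hx hx1
  have ht' : t * x * t⁻¹ = x ^ g := by rw [ht, mul_inv_cancel_right]
  have key : ∀ j : ℕ, t ^ j * x * (t ^ j)⁻¹ = x ^ g ^ j := by
    intro j
    induction j with
    | zero => simp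
    | succ j ih =>
      have h1 : t ^ (j + 1) * x * (t ^ (j + 1))⁻¹ = t * (t ^ j * x * (t ^ j)⁻¹) * t⁻¹ := by
        rw [pow_succ']
        group
      rw [h1, ih, ← conj_pow, ht', ← pow_mul, pow_succ']
  refine ⟨x, ho, ?_⟩
  intro z hz hz1
  have hfo : IsOfFinOrder x := orderOf_pos_iff.1 (ho ▸ hr.pos)
  obtain ⟨n, hn⟩ := (hfo.mem_powers_iff_mem_zpowers).2 hz
  have hn' : x ^ n = z := hn
  have h1 : n % r ≠ 0 := by
    intro h2
    apply hz1
    rw [← hn', ← ho] at *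
    rw [← pow_mod_orderOf, h2, pow_zero]
  obtain ⟨j, -, hj⟩ := hg (n % r) (Nat.mod_lt _ hr.pos) h1
  rw [isConj_iff]
  refine ⟨t ^ j, ?_⟩
  rw [key, ← hn', ← pow_mod_orderOf, ho, hj, ← ho, pow_mod_orderOf]

theorem RootP.isConj {r : ℕ} {S : Type u} [Group S] [Finite S] (h : RootP r S) (hr : r.Prime)
    (hsq : ¬ r ^ 2 ∣ Nat.card S) : ∀ y z : S, orderOf y = r → orderOf z = r → IsConj y z := by
  obtain ⟨x, hx, hz⟩ := h
  exact isConj_of_zpowers hr hsq hx hz

theorem RootP.evenO {S : Type u} [Group S] [Finite S] (hc : Subgroup.center S = ⊥) {r : ℕ} (hr : r.Prime)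
    (hr2 : r ≠ 2) (hsq : ¬ r ^ 2 ∣ Nat.card S) (h : RootP r S) : EvenO S := by
  have h1 := h.isConj hr hsq
  obtain ⟨x, hx, -⟩ := h
  exact evenO_of_once hc hr hr2 hsq hx fun z hz => h1 x z hx hz

end Cfsg.Agent.H139.Orth
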