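import Cfsg.Agent.H139.Orth.FiFour
import Cfsg.Agent.H661.SporTab
import Cfsg.Agent.NotCT.Orders
import Cfsg.Agent.HN.AutHS
import Cfsg.Agent.H661.SporHS
import Cfsg.Agent.H921.SporM24
import Cfsg.Agent.H921.SporJ2
import Cfsg.Agent.H921.SporSuz
import Cfsg.Agent.H921.SporFi
import Cfsg.Agent.H921.SporHN
import Cfsg.Agent.H921.SporON11

/-!
# Sporadic groups with an outer automorphism of order two: rows of the even-degree orthogonal
character theorem

`M12, M22` (elements of order 5), `J2, HS, Fi22, HN` (order 7), `Suz, ON, Fi24'` (order 11): the elements of this order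
are one class.
-/

set_option autoImplicit false
set_option linter.unusedSectionVars false
set_option linter.style.haveILetI false

namespace Cfsg.Agent.H139.Orth

open Cfsg Subgroup Cfsg.Agent.H921.Spor Cfsg.Agent.H727.Orth Cfsg.Agent.NotCT

universe u

variable {S : Type u} [Group S] [Finite S]

/-- the row from an isomorphism -/
theorem evenO_of_orb_equiv {T : Type*} [Group T] (e : S ≃* T) (hc : Subgroup.center S = ⊥) {r : ℕ}
    (hr : r.Prime) (hr2 : r ≠ 2) (hsq : ¬ r ^ 2 ∣ Nat.card S) (h : Orb r (r - 1) T) : EvenO S :=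
  evenO_of_orb hc hr hr2 hsq (h.of_equiv' e)

theorem exists_ne [IsSimpleGroup S] (hc : Subgroup.center S = ⊥) : ∃ a b : S, a * b ≠ b * a := by
  by_contra hno
  push Not at hno
  have h1 : Subgroup.center S = ⊤ := by
    rw [eq_top_iff]
    intro x _
    rw [mem_center_iff]
    exact fun g => hno g x
  rw [hc] at h1
  exact bot_ne_top h1

theorem exists_ne_equiv [IsSimpleGroup S] {T : Type*} [Group T] (e : S ≃* T) (hc : Subgroup.center S = ⊥) :
    ∃ a b : T, a * b ≠ b * a := by
  obtain ⟨a, b, hab⟩ := exists_ne hc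
  refine ⟨e a, e b, fun h => hab (e.injective ?_)⟩
  rw [map_mul, map_mul, h]

theorem simple_equiv [IsSimpleGroup S] {T : Type*} [Group T] (e : S ≃* T) : IsSimpleGroup T :=
  (MulEquiv.isSimpleGroup_congr e).1 inferInstance

/-! ### `M12`, `M22` -/

theorem M12_five : Conf 5 4 Spor.M12 :=
  M24.conf_of_chk (X := 923525504613438217231349507977981984) (A := 816096643313514173455979035738121248)
    (B := 816923151502440406496064250233270304) (N := 4) (ls := [2]) (by norm_num) (by norm_num) (by norm_num)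
    (by intro l hl h1 h2; interval_cases l <;> revert h1 h2 <;> decide) (by decide +kernel)
    (M24.mem_M12 (by decide +kernel)) (M24.mem_M12 (by decide +kernel))

theorem M22_five : Conf 5 4 Spor.M22 :=
  M24.conf_of_chk (X := 963887893057966430096954263890970656) (A := 963755080457121623166422060909598016)
    (B := 980618359438650805479072710695368000) (N := 4) (ls := [2]) (by norm_num) (by norm_num) (by norm_num)
    (by intro l hl h1 h2; interval_cases l <;> revert h1 h2 <;> decide) (by decide +kernel)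
    (M24.mem_M22 (by decide +kernel)) (M24.mem_M22 (by decide +kernel))

theorem m12_evenO (h : Cfsg.Spor.IsoM12 S) (hc : Subgroup.center S = ⊥) : EvenO S := by
  have hn := Orders.m12 h
  obtain ⟨e⟩ := h
  exact evenO_of_orb_equiv e hc (r := 5) (by norm_num) (by norm_num) (by rw [hn]; norm_num)
    (M12_five.orb (by norm_num))

theorem m22_evenO (h : Cfsg.Spor.IsoM22 S) (hc : Subgroup.center S = ⊥) : EvenO S := by
  have hn := Orders.m22 h
  obtain ⟨e⟩ := h
  exact evenO_of_orb_equiv e hc (r := 5) (by norm_num) (by norm_num) (by rw [hn]; norm_num)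
    (M22_five.orb (by norm_num))

/-! ### `J2`, `Suz`, `HN`, `ON`, `Fi22` -/

theorem j2_evenO (h : Cfsg.Spor.IsoJ2 S) (hc : Subgroup.center S = ⊥) : EvenO S := by
  have hn := Orders.j2 h
  obtain ⟨e⟩ := h
  exact evenO_of_orb_equiv e hc (r := 7) (by norm_num) (by norm_num) (by rw [hn]; norm_num) J2.J2_seven

theorem suz_evenO (h : Cfsg.Spor.IsoSuz S) (hc : Subgroup.center S = ⊥) : EvenO S := by
  have hn := Orders.suz h
  obtain ⟨e⟩ := h
  exact evenO_of_orb_equiv e hc (r := 11) (by norm_num) (by norm_num) (by rw [hn]; norm_num)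
    (Suz.Suz_eleven.orb (by norm_num))

theorem hn_evenO [IsSimpleGroup S] (h : Cfsg.Spor.IsoHN S) (hc : Subgroup.center S = ⊥) : EvenO S := by
  have hn := Orders.hn h
  obtain ⟨e⟩ := h
  exact evenO_of_orb_equiv e hc (r := 7) (by norm_num) (by norm_num) (by rw [hn]; norm_num)
    ((HN.HN_seven (simple_equiv e)).orb (by norm_num))

theorem on_evenO [IsSimpleGroup S] (h : Cfsg.Spor.IsoON S) (hc : Subgroup.center S = ⊥) : EvenO S := by
  have hn := Orders.on h
  obtain ⟨e⟩ := h
  exact evenO_of_orb_equiv e hc (r := 11) (by norm_num) (by norm_num) (by rw [hn]; norm_num)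
    (ON.ON_eleven (simple_equiv e))

theorem fi22_evenO [IsSimpleGroup S] (h : Cfsg.Spor.IsoFi22 S) (hc : Subgroup.center S = ⊥) : EvenO S := by
  have hn := Orders.fi22 h
  obtain ⟨e⟩ := h
  exact evenO_of_orb_equiv e hc (r := 7) (by norm_num) (by norm_num) (by rw [hn]; norm_num)
    ((Fi.Fi22_seven (exists_ne_equiv e hc)).orb (by norm_num))

/-! ### `HS` -/

namespace HS

open Cfsg.Agent.SporadicA.PermTab Cfsg.Agent.H661.Spor.Tab Cfsg.Agent.HN.HS100 Equiv

/-- Two lists of tables with the same product. -/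
def chkE (n : ℕ) (L M : List ℕ) : Bool := allB (fun i => Nat.beq (ev L i) (ev M i)) n

theorem eq_of_chk {n : ℕ} {g h : Perm (Fin n)} {L M : List ℕ} (hg : ∀ i : Fin n, (g i : ℕ) = ev L i)
    (hh : ∀ i : Fin n, (h i : ℕ) = ev M i) (hL : chkE n L M = true) : g = h := by
  refine Equiv.ext fun i => Fin.ext ?_
  rw [hg i, hh i]
  exact Nat.eq_of_beq_eq_true ((allB_iff _ _).1 hL i i.2)

theorem ev_mul {n : ℕ} {g h : Perm (Fin n)} {L M : List ℕ} (hg : ∀ i : Fin n, (g i : ℕ) = ev L i)
    (hh : ∀ i : Fin n, (h i : ℕ) = ev M i) (i : Fin n) : ((g * h) i : ℕ) = ev (M ++ L) i := by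
  rw [ev_append, ← hh, ← hg]
  rfl

theorem rootP {n : ℕ} {G : Subgroup (Perm (Fin n))} {X U : List ℕ} (hX : ∀ P ∈ X, InG G P)
    (hU : ∀ P ∈ U, InG G P) {r g : ℕ} (hr : r.Prime) (hg : ∀ k < r, k ≠ 0 → ∃ j < r, g ^ j % r = k)
    (h1 : chkE n (rp X r) [] = true) (i : Fin n) (h2 : Nat.beq (ev X i) i = false)
    (h3 : chkE n (X ++ U) (U ++ rp X g) = true) : RootP r G := by
  obtain ⟨x, hx, hx'⟩ := exists_ev X hX
  obtain ⟨u, hu, hu'⟩ := exists_ev U hU
  refine RootP.of_pow hr (x := (⟨x, hx⟩ : G)) (t := ⟨u, hu⟩) (g := g) ?_ ?_ ?_ hg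
  · apply Subtype.ext
    exact eq_of_chk (ev_rp hx' r) (fun i => rfl) h1
  · intro h4
    have h5 : x = 1 := congrArg Subtype.val h4
    have h6 := hx' i
    rw [h5] at h6
    have h7 : ((1 : Perm (Fin n)) i : ℕ) = i := rfl
    rw [h7] at h6
    rw [← h6] at h2
    simp at h2
  · apply Subtype.ext
    exact eq_of_chk (ev_mul hu' hx') (ev_mul (ev_rp hx' g) hu') h3

theorem rootP_Q : RootP 7 Q :=
  rootP (X := [tX, Cfsg.Agent.H661.Spor.HS.T]) (U := [tY, tX, tY, tW, tW, tW, tW, tX, tW]) (g := 5)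
    (fun P hP => by
      rcases List.mem_cons.1 hP with rfl | hP
      · exact inX
      · rw [List.mem_singleton] at hP
        subst hP
        exact Cfsg.Agent.H661.Spor.HS.inT)
    (fun P hP => by
      have h1 : P = tX ∨ P = tY ∨ P = tW := by
        simp only [List.mem_cons, List.not_mem_nil, or_false] at hP
        tauto
      rcases h1 with rfl | rfl | rfl
      · exact inX
      · exact inY
      · exact inW)
    (by norm_num) (by decide) (by decide +kernel) 0 (by decide +kernel) (by decide +kernel)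

theorem rootP_HS : RootP 7 Cfsg.Spor.HS := by
  obtain ⟨⟨e⟩, -⟩ := Cfsg.Agent.HN.AutHS.nonempty_Q
  exact rootP_Q.map_injective e.toMonoidHom e.injective

end HS

theorem hs_evenO (h : Cfsg.Spor.IsoHS S) (hc : Subgroup.center S = ⊥) : EvenO S := by
  have hn := Orders.hs h
  obtain ⟨e⟩ := h
  exact RootP.evenO hc (r := 7) (by norm_num) (by norm_num) (by rw [hn]; norm_num)
    (HS.rootP_HS.map_injective e.symm.toMonoidHom e.symm.injective)

/-! ### `Fi24'` -/

theorem fi24_evenO [IsSimpleGroup S] (h : Cfsg.Spor.IsoFi24' S) (hc : Subgroup.center S = ⊥) : EvenO S := by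
  have hn := Orders.fi24 h
  obtain ⟨e⟩ := h
  exact RootP.evenO hc (r := 11) (by norm_num) (by norm_num) (by rw [hn]; norm_num)
    ((FiFour.rootP (exists_ne_equiv e hc)).map_injective e.symm.toMonoidHom e.symm.injective)

end Cfsg.Agent.H139.Orth
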